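import Cfsg.Agent.Blocks.Orthogonality

/-!
# Linear relations between the rows of generalized decomposition numbers (S4879, tool (R), p-side; helper495)

`B` a union of `p`-blocks, `x` an element whose `p`-part is not trivial, `χ(x y) = ∑ j, q χ j * f j y` for `χ ∈ B` and the
`p`-regular `y` in `C(x)`, the functions `f j` linearly independent there. Then

* `rel` : `∑ χ ∈ B, χ h * q χ j = 0` for every `p`-regular `h`;
* `rel_theta` : for `g` commuting with the group `K` such that all `g z` are `p`-regular and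
  `χ (g z) = ∑ θ, a χ θ * θ z` : `∑ χ ∈ B, a χ θ * q χ j = 0`.
-/

set_option autoImplicit false

namespace Cfsg.Agent.H495.LB

open Cfsg Cfsg.Agent.Blocks.Orthogonality Subgroup
open scoped ComplexConjugate

variable {G : Type*} [Group G] [Finite G] {p : ℕ} {M : Ideal AlgInt}

/-- the rows of a set of characters at `x` -/
structure Rows (p : ℕ) (B : Finset (IrrCharacter G)) (x : G) {J : Type*} [Fintype J] (Y : Set G) (f : J → G → ℂ)
    (q : IrrCharacter G → J → ℤ) : Prop where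
  /-- the elements `y` commute with `x` and are `p`-regular -/
  comm : ∀ y ∈ Y, Commute x y
  reg : ∀ y ∈ Y, ¬ p ∣ orderOf y
  val : ∀ χ ∈ B, ∀ y ∈ Y, (χ : G → ℂ) (x * y) = ∑ j, (q χ j : ℂ) * f j y
  indep : ∀ c : J → ℂ, (∀ y ∈ Y, ∑ j, c j * f j y = 0) → ∀ j, c j = 0

variable {J : Type*} [Fintype J] {B : Finset (IrrCharacter G)} {x : G} {Y : Set G} {f : J → G → ℂ}
  {q : IrrCharacter G → J → ℤ}

/-- **The relation of a `p`-regular element.** -/
theorem rel (hM : IsPModular p M) (hR : ∀ g, MemLocalRing M (blockCoeff (B : Set (IrrCharacter G)) g))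
    (hx : ∃ k : ℕ, orderOf x = p ^ k) (hx1 : x ≠ 1) (D : Rows p B x Y f q) {h : G} (hh : ¬ p ∣ orderOf h) (j : J) :
    ∑ χ ∈ B, (χ : G → ℂ) h * (q χ j : ℂ) = 0 := by
  have key : ∀ y ∈ Y, ∑ j, (∑ χ ∈ B, conj ((χ : G → ℂ) h) * (q χ j : ℂ)) * f j y = 0 := by
    intro y hy
    have h1 := block_orthogonality hM (B : Set (IrrCharacter G)) hR (g := x * y) (h := h) (x := x) (y := 1)
      ⟨y, rfl, D.comm y hy, hx, D.reg y hy⟩ (isPPart_one_of_not_dvd hh) (fun e => hx1 (isConj_one_left.mp e))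
    rw [finsum_mem_coe_finset] at h1
    calc ∑ j, (∑ χ ∈ B, conj ((χ : G → ℂ) h) * (q χ j : ℂ)) * f j y
        = ∑ χ ∈ B, (χ : G → ℂ) (x * y) * conj ((χ : G → ℂ) h) := by
          simp only [Finset.sum_mul]
          rw [Finset.sum_comm]
          refine Finset.sum_congr rfl fun χ hχ => ?_
          rw [D.val χ hχ y hy, Finset.sum_mul]
          refine Finset.sum_congr rfl fun j _ => ?_
          ring
      _ = 0 := h1
  have h2 := D.indep _ key j
  have h3 := congrArg conj h2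
  rw [map_sum, map_zero] at h3
  rw [← h3]
  refine Finset.sum_congr rfl fun χ _ => ?_
  rw [map_mul, Complex.conj_conj, map_intCast]

/-- **The relations of an irreducible character of `K`.** -/
theorem rel_theta (hM : IsPModular p M) (hR : ∀ g, MemLocalRing M (blockCoeff (B : Set (IrrCharacter G)) g))
    (hx : ∃ k : ℕ, orderOf x = p ^ k) (hx1 : x ≠ 1) (D : Rows p B x Y f q) {g : G} {K : Subgroup G}
    (hg : ∀ z ∈ K, ¬ p ∣ orderOf (g * z)) {T : Type*} [Fintype T] (th : T → K → ℂ)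
    (hth : ∀ c : T → ℂ, (∀ z, ∑ t, c t * th t z = 0) → ∀ t, c t = 0) (a : IrrCharacter G → T → ℂ)
    (ha : ∀ χ ∈ B, ∀ z : K, (χ : G → ℂ) (g * z) = ∑ t, a χ t * th t z) (t : T) (j : J) :
    ∑ χ ∈ B, a χ t * (q χ j : ℂ) = 0 := by
  refine hth (fun t => ∑ χ ∈ B, a χ t * (q χ j : ℂ)) (fun z => ?_) t
  have h1 := rel hM hR hx hx1 D (hg z z.2) j
  calc ∑ t, (∑ χ ∈ B, a χ t * (q χ j : ℂ)) * th t z
      = ∑ χ ∈ B, (χ : G → ℂ) (g * z) * (q χ j : ℂ) := by
        simp only [Finset.sum_mul]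
        rw [Finset.sum_comm]
        refine Finset.sum_congr rfl fun χ hχ => ?_
        rw [ha χ hχ z, Finset.sum_mul]
        refine Finset.sum_congr rfl fun j _ => ?_
        ring
    _ = 0 := h1

end Cfsg.Agent.H495.LB
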