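import Cfsg.Agent.H495.LB.Rel
import Cfsg.Agent.Blocks.Osima

/-!
# The relations for the principal block, rows in the form of the hub (S4879, tool (R), p-side; helper495)

`q : IrrCharacter G → Fin c → ℤ`, `f : Fin c → C(x) → ℂ`, `χ (x s) = ∑ j, q χ j * f j s` for `χ` in the principal block and
`p`-regular `s ∈ C(x)`, the `f j` independent on the `p`-regular elements.

* `relP` : `∑ᶠ χ ∈ B₀, χ h * q χ j = 0` for `p`-regular `h`;
* `aTh g K θ χ = |K|⁻¹ ∑ z, χ (g z) conj (θ z)`; `relP_theta` : `∑ᶠ χ ∈ B₀, aTh g K θ χ * q χ j = 0`.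
-/

set_option autoImplicit false

namespace Cfsg.Agent.H495.LB

open Cfsg Cfsg.Agent.Blocks.Orthogonality Subgroup
open scoped ComplexConjugate

variable {G : Type*} [Group G] [Finite G] {p : ℕ} {M : Ideal AlgInt}

theorem principal_local (hM : IsPModular p M) (g : G) : MemLocalRing M (blockCoeff (principalBlock M G) g) :=
  Cfsg.Agent.Blocks.Osima.memLocalRing_blockCoeff_of_separated hM _ (fun _ hχ _ hψ h =>
    hψ (Cfsg.Agent.Blocks.Osima.sameBlock_trans hM hχ h)) g

variable {c : ℕ} {x : G} {q : IrrCharacter G → Fin c → ℤ} {f : Fin c → centralizer ({x} : Set G) → ℂ}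

/-- **The relation of a `p`-regular element.** -/
theorem relP (hM : IsPModular p M) (hx : ∃ k : ℕ, orderOf x = p ^ k) (hx1 : x ≠ 1)
    (hval : ∀ χ ∈ principalBlock M G, ∀ s : centralizer ({x} : Set G), ¬ p ∣ orderOf s →
      (χ : G → ℂ) (x * s) = ∑ j, (q χ j : ℂ) * f j s)
    (hind : ∀ a : Fin c → ℂ, (∀ s : centralizer ({x} : Set G), ¬ p ∣ orderOf s → ∑ j, a j * f j s = 0) → ∀ j, a j = 0)
    {h : G} (hh : ¬ p ∣ orderOf h) (j : Fin c) : ∑ᶠ χ ∈ principalBlock M G, (χ : G → ℂ) h * (q χ j : ℂ) = 0 := by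
  classical
  have hf : Finite (IrrCharacter G) := Cfsg.Agent.S0909.finite_irr
  have := Fintype.ofFinite (IrrCharacter G)
  obtain ⟨B, hB⟩ : ∃ B : Finset (IrrCharacter G), (B : Set (IrrCharacter G)) = principalBlock M G :=
    ⟨(principalBlock M G).toFinset, Set.coe_toFinset _⟩
  rw [← hB, finsum_mem_coe_finset]
  have hB' : ∀ χ, χ ∈ B ↔ χ ∈ principalBlock M G := fun χ => by rw [← hB, Finset.mem_coe]
  let F : Fin c → G → ℂ := fun j y => if hy : y ∈ centralizer ({x} : Set G) then f j ⟨y, hy⟩ else 0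
  refine rel (B := B) (x := x) (Y := {y | y ∈ centralizer ({x} : Set G) ∧ ¬ p ∣ orderOf y}) (f := F) hM
    (fun g => by rw [hB]; exact principal_local hM g) hx hx1 ?_ hh j
  refine ⟨fun y hy => ?_, fun y hy => hy.2, fun χ hχ y hy => ?_, fun a ha => hind a fun s hs => ?_⟩
  · exact ((mem_centralizer_singleton_iff.1 hy.1).symm : x * y = y * x)
  · have h1 := hval χ ((hB' χ).1 hχ) ⟨y, hy.1⟩ (by rw [← Subgroup.orderOf_coe]; exact hy.2)
    rw [h1]
    refine Finset.sum_congr rfl fun j _ => ?_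
    simp only [F, dif_pos hy.1]
  · have h1 := ha s ⟨s.2, by rw [Subgroup.orderOf_coe]; exact hs⟩
    rw [← h1]
    refine Finset.sum_congr rfl fun j _ => ?_
    simp only [F, dif_pos s.2]

/-- the coefficient of `θ` in `z ↦ χ (g z)` -/
noncomputable def aTh (g : G) (K : Subgroup G) (θ : K → ℂ) (χ : IrrCharacter G) : ℂ :=
  (Nat.card K : ℂ)⁻¹ * ∑ᶠ z : K, (χ : G → ℂ) (g * z) * conj (θ z)

/-- **The relation of a character of `K`.** -/
theorem relP_theta (hM : IsPModular p M) (hx : ∃ k : ℕ, orderOf x = p ^ k) (hx1 : x ≠ 1)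
    (hval : ∀ χ ∈ principalBlock M G, ∀ s : centralizer ({x} : Set G), ¬ p ∣ orderOf s →
      (χ : G → ℂ) (x * s) = ∑ j, (q χ j : ℂ) * f j s)
    (hind : ∀ a : Fin c → ℂ, (∀ s : centralizer ({x} : Set G), ¬ p ∣ orderOf s → ∑ j, a j * f j s = 0) → ∀ j, a j = 0)
    {g : G} {K : Subgroup G} (hK : ∀ z ∈ K, ¬ p ∣ orderOf (g * z)) (θ : K → ℂ) (j : Fin c) :
    ∑ᶠ χ ∈ principalBlock M G, aTh g K θ χ * (q χ j : ℂ) = 0 := by
  classical
  have hf : Finite (IrrCharacter G) := Cfsg.Agent.S0909.finite_irr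
  have := Fintype.ofFinite (IrrCharacter G)
  have := Fintype.ofFinite K
  have key : ∀ z : K, ∑ χ ∈ (principalBlock M G).toFinset, (χ : G → ℂ) (g * z) * (q χ j : ℂ) = 0 := by
    intro z
    have h1 := relP hM hx hx1 hval hind (hK z z.2) j
    rwa [finsum_mem_eq_finite_toFinset_sum _ (Set.toFinite _), Set.Finite.toFinset_eq_toFinset] at h1
  rw [finsum_mem_eq_finite_toFinset_sum _ (Set.toFinite _), Set.Finite.toFinset_eq_toFinset]
  calc ∑ χ ∈ (principalBlock M G).toFinset, aTh g K θ χ * (q χ j : ℂ)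
      = (Nat.card K : ℂ)⁻¹ * ∑ z : K, conj (θ z) *
          ∑ χ ∈ (principalBlock M G).toFinset, (χ : G → ℂ) (g * z) * (q χ j : ℂ) := by
        simp only [aTh, finsum_eq_sum_of_fintype, Finset.mul_sum, Finset.sum_mul]
        rw [Finset.sum_comm]
        refine Finset.sum_congr rfl fun z _ => Finset.sum_congr rfl fun χ _ => ?_
        ring
    _ = 0 := by
        simp only [key, mul_zero, Finset.sum_const_zero]

end Cfsg.Agent.H495.LB
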