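import Cfsg.Agent.H495.LB.RelP
import Cfsg.Agent.SmallSimple.TheoremCCor

/-!
# Tool (R) of S4879 (helper495)

`p`, `r` different primes, `R` a Sylow `r`-subgroup of order `r`, `K` the `r`-regular part of `C(R)` (`IsComp r R K`,
`C(R) = R × K`), `|K|` prime to `p`, `x ≠ 1` a `p`-element, `q` the rows at `x` (`χ (x s) = ∑ j, q χ j * f j s`).

* `toolR_one` : `θ ∈ Irr K` with inertial index `r - 1`: a function `a : Irr G → {0, 1, -1}`, non-zero exactly on the `r`
  characters over `θ`, `part θ χ g = a χ` for `g ∈ R#`, and `∑ χ ∈ B₀(p), a χ * q χ j = 0`;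
* `toolR` : any inertial index `e`, `e t = r - 1`, the rows of the exceptional characters being equal
  (no element `x s` has order divisible by `r`): non-zero on the `e` non-exceptional and one exceptional character.
* supports: `TheoremC.disjoint_Over`.
-/

set_option autoImplicit false

namespace Cfsg.Agent.H495.LB

open Cfsg Subgroup
open Cfsg.Agent.SmallSimple.ThetaSetup Cfsg.Agent.SmallSimple.ThetaOrtho
open scoped ComplexConjugate

universe u

variable {G : Type u} [Group G] [Finite G] {p : ℕ} {M : Ideal AlgInt}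

/-- the rows at `x` -/
structure RowsP (p : ℕ) (M : Ideal AlgInt) (x : G) {c : ℕ} (q : IrrCharacter G → Fin c → ℤ)
    (f : Fin c → centralizer ({x} : Set G) → ℂ) : Prop where
  pelt : ∃ k : ℕ, orderOf x = p ^ k
  ne : x ≠ 1
  val : ∀ χ ∈ principalBlock M G, ∀ s : centralizer ({x} : Set G), ¬ p ∣ orderOf s →
    (χ : G → ℂ) (x * s) = ∑ j, (q χ j : ℂ) * f j s
  indep : ∀ a : Fin c → ℂ, (∀ s : centralizer ({x} : Set G), ¬ p ∣ orderOf s → ∑ j, a j * f j s = 0) → ∀ j, a j = 0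

variable {c : ℕ} {x : G} {q : IrrCharacter G → Fin c → ℤ} {f : Fin c → centralizer ({x} : Set G) → ℂ}

theorem part_eq_aTh (g : G) (K : Subgroup G) (θ : K → ℂ) (χ : IrrCharacter G) :
    aTh g K θ χ = part θ (χ : G → ℂ) g := by
  have := Fintype.ofFinite K
  rw [part_eq, aTh, finsum_eq_sum_of_fintype]

section

variable {r : ℕ} [Fact r.Prime] {R : Sylow r G} {K : Subgroup G}

theorem not_dvd_mul (hp : p.Prime) (hpr : p ≠ r) (hK : IsComp r (R : Subgroup G) K) (hR : Nat.card R = r)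
    (hKp : ¬ p ∣ Nat.card K) {g z : G} (hg : g ∈ R) (hz : z ∈ K) : ¬ p ∣ orderOf (g * z) := by
  have hc : Commute g z := hK.comm hg hz
  intro h
  have h1 := h.trans hc.orderOf_mul_dvd_mul_orderOf
  rcases hp.dvd_mul.1 h1 with h2 | h2
  · have h3 : orderOf (⟨g, hg⟩ : R) ∣ Nat.card R := orderOf_dvd_natCard _
    have h4 : orderOf g ∣ Nat.card R := by rwa [← Subgroup.orderOf_coe] at h3
    have h4 : orderOf g ∣ r := h4.trans (dvd_of_eq hR)
    exact hpr ((Nat.prime_dvd_prime_iff_eq hp Fact.out).1 (h2.trans h4))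
  · have h3 : orderOf (⟨z, hz⟩ : K) ∣ Nat.card K := orderOf_dvd_natCard _
    rw [← Subgroup.orderOf_coe] at h3
    exact hKp (h2.trans h3)

/-- **the relation for `part`** -/
theorem rel_part (hM : IsPModular p M) (hpr : p ≠ r) (D : RowsP p M x q f)
    (hK : IsComp r (R : Subgroup G) K) (hR : Nat.card R = r) (hKp : ¬ p ∣ Nat.card K) (θ : K → ℂ) {g : G} (hg : g ∈ R)
    (j : Fin c) : ∑ᶠ χ ∈ principalBlock M G, part θ (χ : G → ℂ) g * (q χ j : ℂ) = 0 := by
  have h1 := relP_theta hM D.pelt D.ne D.val D.indep (g := g) (K := K)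
    (fun z hz => not_dvd_mul hM.1 hpr hK hR hKp hg hz) θ j
  rw [← h1]
  refine finsum_congr fun χ => finsum_congr fun _ => ?_
  rw [part_eq_aTh]

theorem finsum_int {S : Set (IrrCharacter G)} (a b : IrrCharacter G → ℤ)
    (h : ∑ᶠ χ ∈ S, (a χ : ℂ) * (b χ : ℂ) = 0) : ∑ᶠ χ ∈ S, a χ * b χ = 0 := by
  classical
  have : Finite (IrrCharacter G) := Cfsg.Agent.S0909.finite_irr
  have := Fintype.ofFinite (IrrCharacter G)
  rw [finsum_mem_eq_finite_toFinset_sum _ (Set.toFinite _)] at h ⊢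
  exact_mod_cast h

/-- **Tool (R), inertial index `r - 1`.** -/
theorem toolR_one (hM : IsPModular p M) (hpr : p ≠ r) (D : RowsP p M x q f)
    (hK : IsComp r (R : Subgroup G) K) (hR : Nat.card R = r) (hKp : ¬ p ∣ Nat.card K) {θ : K → ℂ}
    (hθ : IsIrrCharacter K θ) (he : Nat.card (stabAct hK θ) = r - 1) :
    ∃ a : IrrCharacter G → ℤ, (∀ χ, a χ = 0 ∨ a χ = 1 ∨ a χ = -1) ∧ (∀ χ, χ ∈ Over R θ ↔ a χ ≠ 0) ∧
      Set.ncard {χ | a χ ≠ 0} = r ∧ (∀ χ : IrrCharacter G, ∀ g ∈ R, g ≠ 1 → part θ (χ : G → ℂ) g = a χ) ∧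
      ∀ j, ∑ᶠ χ ∈ principalBlock M G, a χ * q χ j = 0 := by
  classical
  obtain ⟨B, δ, h1, h2, h3, h4⟩ := Cfsg.Agent.SmallSimple.TheoremCCor.theoremC_one hK hR hθ he
  have hδ : ∀ χ ∈ B, δ χ ≠ 0 := fun χ hχ => by rcases (h3 χ hχ).1 with h | h <;> omega
  have hpart : ∀ χ : IrrCharacter G, ∀ g ∈ R, g ≠ 1 →
      part θ (χ : G → ℂ) g = ((if χ ∈ B then δ χ else 0 : ℤ) : ℂ) := by
    intro χ g hg hg1
    by_cases hχ : χ ∈ B
    · rw [if_pos hχ]
      exact (h3 χ hχ).2 ⟨g, hg⟩ fun h => hg1 (congrArg Subtype.val h)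
    · rw [if_neg hχ]
      push_cast
      exact part_eq_zero (fun h => hχ ((h2 χ).1 h)) (x := ⟨g, hg⟩) fun h => hg1 (congrArg Subtype.val h)
  refine ⟨fun χ => if χ ∈ B then δ χ else 0, fun χ => ?_, fun χ => ?_, ?_, hpart, fun j => ?_⟩
  · by_cases hχ : χ ∈ B
    · simp only [if_pos hχ]
      exact Or.inr (h3 χ hχ).1
    · simp only [if_neg hχ]
      exact Or.inl trivial
  · rw [h2]
    by_cases hχ : χ ∈ B
    · simpa [hχ] using hδ χ hχ
    · simp [hχ]
  · have h5 : {χ : IrrCharacter G | (if χ ∈ B then δ χ else 0) ≠ 0} = (B : Set (IrrCharacter G)) := by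
      ext χ
      by_cases hχ : χ ∈ B
      · simp [hχ, hδ χ hχ]
      · simp [hχ]
    rw [h5, Set.ncard_coe_finset, h1]
  · obtain ⟨g, hg, hg1⟩ := exists_ne_one (P := (R : Subgroup G)) hR
    refine finsum_int _ _ ?_
    rw [← rel_part hM hpr D hK hR hKp θ hg j]
    refine finsum_congr fun χ => finsum_congr fun _ => ?_
    rw [hpart χ g hg hg1]

/-- **Tool (R), any inertial index `e`.** `Θ₀` is one of the exceptional characters. -/
theorem toolR (hM : IsPModular p M) (hpr : p ≠ r) (D : RowsP p M x q f)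
    (hK : IsComp r (R : Subgroup G) K) (hR : Nat.card R = r) (hKp : ¬ p ∣ Nat.card K) {θ : K → ℂ}
    (hθ : IsIrrCharacter K θ) {e t : ℕ} (he : Nat.card (stabAct hK θ) = e) (het : e * t = r - 1) :
    ∃ (a : IrrCharacter G → ℤ) (Θ₀ : IrrCharacter G), (∀ χ, a χ = 0 ∨ a χ = 1 ∨ a χ = -1) ∧
      (∀ χ, a χ ≠ 0 → χ ∈ Over R θ) ∧ Set.ncard {χ | a χ ≠ 0} = e + 1 ∧ a Θ₀ ≠ 0 ∧
      (∀ χ : IrrCharacter G, χ ≠ Θ₀ → a χ ≠ 0 → ∀ g ∈ R, g ≠ 1 → part θ (χ : G → ℂ) g = a χ) ∧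
      (∀ χ ∈ Over R θ, a χ = 0 → ∀ g : G, ¬ r ∣ orderOf g → (χ : G → ℂ) g = (Θ₀ : G → ℂ) g) ∧
      (∀ g : G, ¬ r ∣ orderOf g → ∑ᶠ χ ∈ Over R θ, (a χ : ℂ) * (χ : G → ℂ) g = 0) ∧
      ∀ j, ∑ᶠ χ ∈ principalBlock M G, a χ * q χ j = 0 := by
  classical
  have hr : r.Prime := Fact.out
  have : Finite (IrrCharacter G) := Cfsg.Agent.S0909.finite_irr
  have := Fintype.ofFinite (IrrCharacter G)
  have := Cfsg.Agent.SmallSimple.PrimeDual.finite_dual hr hR
  have := Fintype.ofFinite (R →* ℂˣ)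
  obtain ⟨NE, X, ε, d, S, h1, h2, h3, h4, h5, h6, h7, h8, h9, h10, h11⟩ :=
    Cfsg.Agent.SmallSimple.TheoremC.theoremC hK hR hθ he het
  have het0 : e * t ≠ 0 := by rw [het]; have := hr.two_le; omega
  have he0 : 0 < e := Nat.pos_of_ne_zero fun h => het0 (by rw [h, zero_mul])
  have ht0 : 0 < t := Nat.pos_of_ne_zero fun h => het0 (by rw [h, mul_zero])
  obtain ⟨Θ₀, hΘ₀⟩ := Finset.card_pos.1 (by rw [h4]; exact ht0)
  have hd0 : d ≠ 0 := by rcases h6 with h | h <;> omega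
  have hdd : (d : ℂ) * d = 1 := by rcases h6 with h | h <;> rw [h] <;> norm_num
  have hΘNE : Θ₀ ∉ NE := fun h => Finset.disjoint_left.1 h2 h hΘ₀
  have hε : ∀ χ ∈ NE, ε χ ≠ 0 := fun χ hχ => by rcases h5 χ hχ with h | h <;> omega
  let a : IrrCharacter G → ℤ := fun χ => if χ ∈ NE then ε χ else if χ = Θ₀ then -d else 0
  have haNE : ∀ χ ∈ NE, a χ = ε χ := fun χ hχ => if_pos hχ
  have haΘ : a Θ₀ = -d := by simp only [a, if_neg hΘNE, if_true]
  have ha0 : ∀ χ, χ ∉ NE → χ ≠ Θ₀ → a χ = 0 := fun χ h h' => by simp only [a, if_neg h, if_neg h']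
  have hane : ∀ χ, a χ ≠ 0 → χ ∈ NE ∨ χ = Θ₀ := by
    intro χ hχ
    by_contra hno
    push Not at hno
    exact hχ (ha0 χ hno.1 hno.2)
  refine ⟨a, Θ₀, fun χ => ?_, fun χ hχ => ?_, ?_, ?_, fun χ hχ hχ0 g hg hg1 => ?_, fun χ hχ hχ0 g hg => ?_,
    fun g hg => ?_, fun j => ?_⟩
  · by_cases hχ : χ ∈ NE
    · rw [haNE χ hχ]; exact Or.inr (h5 χ hχ)
    · by_cases hχ' : χ = Θ₀
      · subst hχ'
        rw [haΘ]
        rcases h6 with h | h <;> rw [h] <;> norm_num
      · exact Or.inl (ha0 χ hχ hχ')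
  · rw [h1]
    rcases hane χ hχ with h | h
    · exact Or.inl h
    · exact Or.inr (h ▸ hΘ₀)
  · have h12 : {χ : IrrCharacter G | a χ ≠ 0} = ((insert Θ₀ NE : Finset (IrrCharacter G)) : Set (IrrCharacter G)) := by
      ext χ
      rw [Finset.mem_coe, Finset.mem_insert]
      constructor
      · intro h
        exact (hane χ h).symm
      · rintro (h | h)
        · show a χ ≠ 0
          rw [h, haΘ]; omega
        · show a χ ≠ 0
          rw [haNE χ h]; exact hε χ h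
    rw [h12, Set.ncard_coe_finset, Finset.card_insert_of_notMem hΘNE, h3]
  · rw [haΘ]; omega
  · have hNE : χ ∈ NE := (hane χ hχ0).resolve_right hχ
    rw [haNE χ hNE]
    exact h7 χ hNE ⟨g, hg⟩ fun h => hg1 (congrArg Subtype.val h)
  · have hX : χ ∈ X := ((h1 χ).1 hχ).resolve_left fun h => hε χ h (by rw [← haNE χ h]; exact hχ0)
    have e1 := h11 χ hX g hg
    have e2 := h11 Θ₀ hΘ₀ g hg
    rw [e1] at e2
    exact mul_left_cancel₀ (by exact_mod_cast hd0) e2
  · have h12 : ∑ᶠ χ ∈ Over R θ, (a χ : ℂ) * (χ : G → ℂ) g =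
        ∑ χ ∈ insert Θ₀ NE, (a χ : ℂ) * (χ : G → ℂ) g := by
      rw [finsum_mem_eq_finite_toFinset_sum _ (Set.toFinite _)]
      symm
      refine Finset.sum_subset (fun χ hχ => ?_) (fun χ _ hχ => ?_)
      · rw [Set.Finite.mem_toFinset, h1]
        rcases Finset.mem_insert.1 hχ with h | h
        · exact Or.inr (h ▸ hΘ₀)
        · exact Or.inl h
      · rw [Finset.mem_insert, not_or] at hχ
        rw [ha0 χ hχ.2 hχ.1]
        push_cast
        rw [zero_mul]
    rw [h12, Finset.sum_insert hΘNE, haΘ, Finset.sum_congr rfl fun χ hχ => by rw [haNE χ hχ], h11 Θ₀ hΘ₀ g hg]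
    push_cast
    ring
  · -- the Fourier argument
    let B0 : Finset (IrrCharacter G) := Finset.univ.filter fun χ => χ ∈ principalBlock M G
    have hB0 : ∀ χ, χ ∈ B0 ↔ χ ∈ principalBlock M G := fun χ => by simp [B0]
    have hfin : ∀ F : IrrCharacter G → ℂ, ∑ᶠ χ ∈ principalBlock M G, F χ = ∑ χ ∈ B0, F χ := by
      intro F
      have : principalBlock M G = (B0 : Set (IrrCharacter G)) := by
        ext χ; rw [Finset.mem_coe, hB0]
      rw [this, finsum_mem_coe_finset]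
    let A : ℂ := ∑ χ ∈ B0.filter (· ∈ NE), (ε χ : ℂ) * (q χ j : ℂ)
    let b : (R →* ℂˣ) → ℂ := fun l => (if l = 1 then A else 0) +
      ∑ Θ ∈ B0.filter (· ∈ X), if l ∈ S Θ then (d : ℂ) * (q Θ j : ℂ) else 0
    have hsum : ∀ g : R, g ≠ 1 → ∑ l : R →* ℂˣ, b l * conj ((l g : ℂˣ) : ℂ) = 0 := by
      intro g hg
      have hg' : g⁻¹ ≠ 1 := inv_ne_one.2 hg
      have e1 := rel_part hM hpr D hK hR hKp θ (g := ((g⁻¹ : R) : G)) (g⁻¹).2 j
      rw [hfin] at e1
      have e2 : ∑ χ ∈ B0, part θ (χ : G → ℂ) ((g⁻¹ : R) : G) * (q χ j : ℂ) =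
          A + ∑ Θ ∈ B0.filter (· ∈ X), (d : ℂ) * (q Θ j : ℂ) * ∑ l ∈ S Θ, ((l g⁻¹ : ℂˣ) : ℂ) := by
        have e3 : B0 = B0.filter (· ∈ NE) ∪ (B0.filter (· ∈ X) ∪ B0.filter fun χ => χ ∉ NE ∧ χ ∉ X) := by
          ext χ
          simp only [Finset.mem_union, Finset.mem_filter]
          tauto
        have e4 : Disjoint (B0.filter (· ∈ NE)) (B0.filter (· ∈ X) ∪ B0.filter fun χ => χ ∉ NE ∧ χ ∉ X) := by
          rw [Finset.disjoint_left]
          intro χ hχ hχ'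
          simp only [Finset.mem_union, Finset.mem_filter] at hχ hχ'
          rcases hχ' with h | h
          · exact Finset.disjoint_left.1 h2 hχ.2 h.2
          · exact h.2.1 hχ.2
        have e5 : Disjoint (B0.filter (· ∈ X)) (B0.filter fun χ => χ ∉ NE ∧ χ ∉ X) := by
          rw [Finset.disjoint_left]
          intro χ hχ hχ'
          simp only [Finset.mem_filter] at hχ hχ'
          exact hχ'.2.2 hχ.2
        conv_lhs => rw [e3]
        rw [Finset.sum_union e4, Finset.sum_union e5]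
        have e6 : ∑ χ ∈ B0.filter (fun χ => χ ∉ NE ∧ χ ∉ X), part θ (χ : G → ℂ) ((g⁻¹ : R) : G) * (q χ j : ℂ) = 0 := by
          refine Finset.sum_eq_zero fun χ hχ => ?_
          rw [Finset.mem_filter] at hχ
          rw [part_eq_zero (fun h => by
            rcases (h1 χ).1 h with h | h
            · exact hχ.2.1 h
            · exact hχ.2.2 h) hg', zero_mul]
        rw [e6, add_zero]
        congr 1
        · refine Finset.sum_congr rfl fun χ hχ => ?_
          rw [h7 χ (Finset.mem_filter.1 hχ).2 _ hg']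
        · refine Finset.sum_congr rfl fun χ hχ => ?_
          rw [(h8 χ (Finset.mem_filter.1 hχ).2).2.2.2 _ hg']
          ring
      rw [← e1, e2]
      simp only [b, add_mul, Finset.sum_add_distrib]
      congr 1
      · rw [Finset.sum_eq_single (1 : R →* ℂˣ)]
        · simp
        · intro l _ hl
          rw [if_neg hl, zero_mul]
        · intro h; exact absurd (Finset.mem_univ _) h
      · simp only [Finset.sum_mul]
        rw [Finset.sum_comm]
        refine Finset.sum_congr rfl fun Θ _ => ?_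
        simp only [ite_mul, zero_mul]
        rw [Finset.mul_sum, ← Finset.sum_filter, Finset.filter_mem_eq_inter, Finset.univ_inter]
        refine Finset.sum_congr rfl fun l _ => ?_
        rw [Cfsg.Agent.SmallSimple.PrimeDual.conj_hom_apply]
    obtain ⟨l₀, hl₀⟩ := Finset.card_pos.1 (by rw [(h8 Θ₀ hΘ₀).1]; exact he0)
    have hl1 : l₀ ≠ 1 := fun h => (h8 Θ₀ hΘ₀).2.1 (h ▸ hl₀)
    have hb := Cfsg.Agent.SmallSimple.PrimeDual.eq_of_sum_eq_zero b hsum 1 l₀
    have hb1 : b 1 = A := by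
      simp only [b, if_true]
      rw [Finset.sum_eq_zero, add_zero]
      intro Θ hΘ
      rw [if_neg (h8 Θ (Finset.mem_filter.1 hΘ).2).2.1]
    have hb2 : b l₀ = if Θ₀ ∈ B0 then (d : ℂ) * (q Θ₀ j : ℂ) else 0 := by
      simp only [b, if_neg hl1, zero_add]
      by_cases hΘB : Θ₀ ∈ B0
      · rw [if_pos hΘB, Finset.sum_eq_single Θ₀]
        · rw [if_pos hl₀]
        · intro Θ hΘ hne
          rw [if_neg fun h => Finset.disjoint_left.1 (h9 Θ (Finset.mem_filter.1 hΘ).2 Θ₀ hΘ₀ hne) h hl₀]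
        · intro h
          exact absurd (Finset.mem_filter.2 ⟨hΘB, hΘ₀⟩) h
      · rw [if_neg hΘB]
        refine Finset.sum_eq_zero fun Θ hΘ => ?_
        have hne : Θ ≠ Θ₀ := fun h => hΘB (h ▸ (Finset.mem_filter.1 hΘ).1)
        rw [if_neg fun h => Finset.disjoint_left.1 (h9 Θ (Finset.mem_filter.1 hΘ).2 Θ₀ hΘ₀ hne) h hl₀]
    rw [hb1, hb2] at hb
    refine finsum_int _ _ ?_
    rw [hfin]
    have e7 : ∑ χ ∈ B0, (a χ : ℂ) * (q χ j : ℂ) = A + if Θ₀ ∈ B0 then (-d : ℂ) * (q Θ₀ j : ℂ) else 0 := by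
      have e8 : ∀ χ ∈ B0, (a χ : ℂ) * (q χ j : ℂ) = (if χ ∈ NE then (ε χ : ℂ) * (q χ j : ℂ) else 0) +
          if χ = Θ₀ then (-d : ℂ) * (q χ j : ℂ) else 0 := by
        intro χ _
        by_cases hχ : χ ∈ NE
        · have hne : χ ≠ Θ₀ := fun h => hΘNE (h ▸ hχ)
          rw [haNE χ hχ, if_pos hχ, if_neg hne, add_zero]
        · by_cases hχ' : χ = Θ₀
          · subst hχ'
            rw [haΘ, if_neg hΘNE, if_pos rfl, zero_add]
            push_cast
            ring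
          · rw [ha0 χ hχ hχ', if_neg hχ, if_neg hχ', add_zero]
            push_cast
            rw [zero_mul]
      rw [Finset.sum_congr rfl e8, Finset.sum_add_distrib, ← Finset.sum_filter, Finset.sum_ite_eq']
    rw [e7, hb]
    by_cases hΘB : Θ₀ ∈ B0
    · rw [if_pos hΘB, if_pos hΘB]; ring
    · rw [if_neg hΘB, if_neg hΘB, add_zero]

end

end Cfsg.Agent.H495.LB
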